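import Cfsg.Agent.H380.RC.EStmt
import Cfsg.Agent.TwoFusion.SLTwoFacts
import Cfsg.Agent.S0243
import Cfsg.Agent.S0245
import Cfsg.Agent.S0246
import Cfsg.Agent.S0249
import Cfsg.Agent.S0256
import Cfsg.Agent.S0270
import Cfsg.Agent.S0280
import Cfsg.Agent.S0283
import Cfsg.Agent.S2550

/-!
# S3510, family E: the boxes E16 and E0

* `small_stmt` : `SmallStmt`, the smaller groups (orders of `PSU`, `PSL`, `PSp`: `low_psu`, `up_psu`, `up_psl`, `up_psp`,
  `dvd_psu`, `dvd_psl`, `dvd_psp`; `rc_psu`, `rc_psl`, `rc_psl_two`, `rc_psp` : the induction hypothesis applies);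
* `lift_stmt` : `LiftStmt`, commuting lifts of a commuting family.
-/

set_option autoImplicit false
set_option linter.unusedSectionVars false

open Cfsg Matrix

namespace Cfsg.Agent.H906.RC

/-! ### the order of `PSU` -/

/-- the factor -/
def fu (q i : ℕ) : ℕ := if Even i then q ^ (i + 2) - 1 else q ^ (i + 2) + 1

theorem fu_even {q i : ℕ} (h : Even i) : fu q i = q ^ (i + 2) - 1 := if_pos h
theorem fu_odd {q i : ℕ} (h : ¬ Even i) : fu q i = q ^ (i + 2) + 1 := if_neg h

theorem card_psu {F : Type*} [Field F] [Fintype F] {q : ℕ} (hF : Fintype.card F = q ^ 2) {n : ℕ} (hn : 3 ≤ n) :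
    Nat.gcd n (q + 1) * Nat.card (PSU n F q) =
      q ^ (n * (n - 1) / 2) * ∏ i ∈ Finset.range (n - 1), fu q i := by
  have h := Cfsg.Agent.S0280.result hF n (by omega)
  obtain ⟨m, rfl⟩ := Nat.exists_eq_add_of_le' hn
  rw [Finset.prod_range_succ', if_pos (by decide), zero_add, pow_one, mul_left_comm, ← mul_assoc (q ^ _),
    mul_comm _ (q + 1)] at h
  have h' := Nat.eq_of_mul_eq_mul_left (show 0 < q + 1 by omega) h
  rw [h']
  congr 1
  refine Finset.prod_congr rfl fun i _ => ?_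
  rcases Nat.even_or_odd i with hi | hi
  · rw [fu_even hi, if_neg (by rw [Nat.even_add_one, not_not]; exact hi)]
  · rw [fu_odd (Nat.not_even_iff_odd.2 hi), if_pos hi.add_one]

theorem fu_ge {q : ℕ} (hq : 2 ≤ q) (i : ℕ) : q ^ (i + 1) ≤ fu q i := by
  have h1 : q ^ (i + 1) * 2 ≤ q ^ (i + 2) := by
    rw [pow_succ q (i + 1)]
    exact Nat.mul_le_mul_left _ hq
  have h2 : 1 ≤ q ^ (i + 1) := Nat.one_le_pow _ _ (by omega)
  unfold fu
  split_ifs <;> omega

theorem tri_even (n : ℕ) : 2 * (n * (n - 1) / 2) = n * (n - 1) := by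
  rcases n with _ | n
  · rfl
  · rw [Nat.add_sub_cancel]
    have : 2 ∣ (n + 1) * n := by
      rw [mul_comm]
      exact (Nat.even_mul_succ_self n).two_dvd
    exact Nat.mul_div_cancel' this

theorem sum_add_one (n : ℕ) : ∑ i ∈ Finset.range n, (i + 1) = (n + 1) * n / 2 := by
  have h := Finset.sum_range_id_mul_two (n + 1)
  rw [Nat.add_sub_cancel, Finset.sum_range_succ'] at h
  have h2 := tri_even (n + 1)
  rw [Nat.add_sub_cancel] at h2
  omega

theorem sum_add_two (n : ℕ) : 2 * ∑ i ∈ Finset.range n, (i + 2) = n * (n + 3) := by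
  induction n with
  | zero => rfl
  | succ n ih =>
    rw [Finset.sum_range_succ, mul_add, ih]
    ring

theorem prod_fu_ge {q : ℕ} (hq : 2 ≤ q) (n : ℕ) :
    q ^ ((n + 1) * n / 2) ≤ ∏ i ∈ Finset.range n, fu q i := by
  rw [← sum_add_one, ← Finset.prod_pow_eq_pow_sum]
  exact Finset.prod_le_prod' fun i _ => fu_ge hq i

/-- two consecutive factors -/
theorem fu_pair {q : ℕ} (hq : 2 ≤ q) {i : ℕ} (hi : Even i) : fu q i * fu q (i + 1) < q ^ (i + 2 + (i + 3)) := by
  rw [fu_even hi, fu_odd (by rw [Nat.even_add_one, not_not]; exact hi)]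
  have h1 : q ^ (i + 1 + 2) = q ^ (i + 2) * q := by rw [show i + 1 + 2 = i + 2 + 1 by ring, pow_succ]
  have h2 : q ^ (i + 2 + (i + 3)) = q ^ (i + 2) * (q ^ (i + 2) * q) := by
    ring
  rw [h1, h2]
  set x := q ^ (i + 2) with hx
  have h3 : 1 ≤ x := Nat.one_le_pow _ _ (by omega)
  obtain ⟨y, hy⟩ := Nat.exists_eq_add_of_le' h3
  rw [hy, Nat.add_sub_cancel]
  nlinarith [Nat.zero_le y]

theorem prod_fu_le {q : ℕ} (hq : 2 ≤ q) (j : ℕ) :
    ∏ i ∈ Finset.range (2 * j), fu q i ≤ q ^ (∑ i ∈ Finset.range (2 * j), (i + 2)) := by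
  induction j with
  | zero => simp
  | succ j ih =>
    rw [show 2 * (j + 1) = 2 * j + 1 + 1 by ring, Finset.prod_range_succ, Finset.prod_range_succ,
      Finset.sum_range_succ, Finset.sum_range_succ, mul_assoc, add_assoc, pow_add]
    exact Nat.mul_le_mul ih (fu_pair hq (even_two_mul j)).le

theorem prod_fu_lt {q : ℕ} (hq : 2 ≤ q) {k : ℕ} (hk : 1 ≤ k) :
    ∏ i ∈ Finset.range k, fu q i < q ^ (∑ i ∈ Finset.range k, (i + 2)) := by
  rcases Nat.even_or_odd' k with ⟨j, rfl | rfl⟩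
  · obtain ⟨j, rfl⟩ := Nat.exists_eq_add_of_le' (show 1 ≤ j by omega)
    rw [show 2 * (j + 1) = 2 * j + 1 + 1 by ring, Finset.prod_range_succ, Finset.prod_range_succ,
      Finset.sum_range_succ, Finset.sum_range_succ, mul_assoc, add_assoc, pow_add]
    exact Nat.mul_lt_mul_of_le_of_lt (prod_fu_le hq j) (fu_pair hq (even_two_mul j))
      (Nat.pos_of_ne_zero (pow_ne_zero _ (by omega)))
  · rw [Finset.prod_range_succ, Finset.sum_range_succ, pow_add]
    refine Nat.mul_lt_mul_of_le_of_lt (prod_fu_le hq j) ?_ (Nat.pos_of_ne_zero (pow_ne_zero _ (by omega)))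
    rw [fu_even (even_two_mul j)]
    have : 1 ≤ q ^ (2 * j + 2) := Nat.one_le_pow _ _ (by omega)
    omega

theorem two_le_of_card {F : Type*} [Field F] [Fintype F] {q : ℕ} (hF : Fintype.card F = q ^ 2) : 2 ≤ q := by
  have h1 : 1 < Fintype.card F := Fintype.one_lt_card
  rw [hF] at h1
  by_contra h
  have : q ^ 2 ≤ 1 ^ 2 := Nat.pow_le_pow_left (by omega) 2
  omega

/-- the lower bound -/
theorem low_psu {F : Type*} [Field F] [Fintype F] {q : ℕ} (hF : Fintype.card F = q ^ 2) {n : ℕ} (hn : 3 ≤ n) :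
    q ^ (n * (n - 1)) ≤ q ^ 2 * Nat.card (PSU n F q) := by
  have hq := two_le_of_card hF
  have h1 := card_psu hF hn
  have h2 : Nat.gcd n (q + 1) ≤ q ^ 2 := by
    have := Nat.le_of_dvd (by omega) (Nat.gcd_dvd_right n (q + 1))
    nlinarith
  refine le_trans ?_ (Nat.mul_le_mul_right _ h2)
  have e : n * (n - 1) = n * (n - 1) / 2 + n * (n - 1) / 2 := by
    have := tri_even n
    omega
  rw [h1]
  calc q ^ (n * (n - 1)) = q ^ (n * (n - 1) / 2) * q ^ (n * (n - 1) / 2) := by rw [← pow_add, ← e]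
    _ ≤ _ := by
      refine Nat.mul_le_mul_left _ ?_
      obtain ⟨m, rfl⟩ := Nat.exists_eq_add_of_le' (show 1 ≤ n by omega)
      rw [Nat.add_sub_cancel]
      exact prod_fu_ge hq m

/-- the upper bound -/
theorem up_psu {F : Type*} [Field F] [Fintype F] {q : ℕ} (hF : Fintype.card F = q ^ 2) {n : ℕ} (hn : 3 ≤ n) :
    Nat.card (PSU n F q) < q ^ (n ^ 2 - 1) := by
  have hq := two_le_of_card hF
  have h1 := card_psu hF hn
  have h2 : 1 ≤ Nat.gcd n (q + 1) := Nat.gcd_pos_of_pos_left _ (by omega)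
  have h3 : Nat.card (PSU n F q) ≤ Nat.gcd n (q + 1) * Nat.card (PSU n F q) := Nat.le_mul_of_pos_left _ h2
  refine lt_of_le_of_lt h3 ?_
  rw [h1]
  have h4 := prod_fu_lt hq (k := n - 1) (by omega)
  have h5 : n * (n - 1) / 2 + ∑ i ∈ Finset.range (n - 1), (i + 2) = n ^ 2 - 1 := by
    have e1 := tri_even n
    have e2 := sum_add_two (n - 1)
    obtain ⟨m, rfl⟩ := Nat.exists_eq_add_of_le' (show 1 ≤ n by omega)
    rw [Nat.add_sub_cancel] at *
    have e3 : 2 * ((m + 1) ^ 2 - 1) = (m + 1) * m + m * (m + 3) := by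
      have : (m + 1) ^ 2 - 1 = m * (m + 2) := by
        rw [show (m + 1) ^ 2 = m * (m + 2) + 1 by ring, Nat.add_sub_cancel]
      rw [this]
      ring
    omega
  rw [← h5, pow_add]
  exact Nat.mul_lt_mul_of_le_of_lt le_rfl h4 (Nat.pos_of_ne_zero (pow_ne_zero _ (by omega)))

/-- the power of the characteristic -/
theorem dvd_psu {F : Type*} [Field F] [Fintype F] {q : ℕ} (hF : Fintype.card F = q ^ 2) {n : ℕ} (hn : 3 ≤ n) :
    q ^ (n * (n - 1) / 2) ∣ Nat.card (PSU n F q) := by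
  have h1 := card_psu hF hn
  have h2 : Nat.Coprime (q ^ (n * (n - 1) / 2)) (Nat.gcd n (q + 1)) := by
    refine Nat.Coprime.pow_left _ ?_
    refine Nat.Coprime.coprime_dvd_right (Nat.gcd_dvd_right _ _) ?_
    exact (Nat.coprime_self_add_right.2 (Nat.coprime_one_right q))
  exact h2.dvd_of_dvd_mul_left (Dvd.intro _ h1.symm)

/-! ### the order of `PSL` and `PSp` -/

theorem two_dvd_mul_pred (n : ℕ) : 2 ∣ n * (n - 1) := ⟨_, (tri_even n).symm⟩

theorem prod_gl (q n : ℕ) : ∏ i : Fin n, (q ^ n - q ^ (i : ℕ)) =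
    q ^ (n * (n - 1) / 2) * ∏ i ∈ Finset.range n, (q ^ (i + 1) - 1) := by
  rw [Fin.prod_univ_eq_prod_range (fun i => q ^ n - q ^ i) n]
  have h1 : ∀ i ∈ Finset.range n, q ^ n - q ^ i = q ^ i * (q ^ (n - i) - 1) := by
    intro i hi
    rw [Finset.mem_range] at hi
    rw [Nat.mul_sub, ← pow_add, Nat.add_sub_cancel' hi.le, mul_one]
  rw [Finset.prod_congr rfl h1, Finset.prod_mul_distrib, Finset.prod_pow_eq_pow_sum, ← Finset.sum_range_id_mul_two]
  congr 1
  · rw [Nat.mul_div_cancel _ (by norm_num)]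
  · rw [← Finset.prod_range_reflect]
    refine Finset.prod_congr rfl fun i hi => ?_
    rw [Finset.mem_range] at hi
    congr 2
    omega

theorem card_psl {F : Type*} [Field F] [Fintype F] {q : ℕ} (hF : Fintype.card F = q) {n : ℕ} (hn : 2 ≤ n) :
    Nat.gcd n (q - 1) * Nat.card (ProjectiveSpecialLinearGroup (Fin n) F) =
      q ^ (n * (n - 1) / 2) * ∏ i ∈ Finset.range (n - 1), (q ^ (i + 2) - 1) := by
  have h := Cfsg.Agent.S0243.result hF n hn
  have hq : 2 ≤ q := hF ▸ Fintype.one_lt_card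
  obtain ⟨m, rfl⟩ := Nat.exists_eq_add_of_le' hn
  rw [prod_gl, Finset.prod_range_succ', zero_add, pow_one, mul_left_comm, ← mul_assoc (q ^ _),
    mul_comm _ (q - 1)] at h
  exact Nat.eq_of_mul_eq_mul_left (show 0 < q - 1 by omega) h

theorem prod_pred_lt {q : ℕ} (hq : 2 ≤ q) {k : ℕ} (hk : 1 ≤ k) :
    ∏ i ∈ Finset.range k, (q ^ (i + 2) - 1) < q ^ (∑ i ∈ Finset.range k, (i + 2)) := by
  rw [← Finset.prod_pow_eq_pow_sum]
  refine Finset.prod_lt_prod_of_nonempty ?_ ?_ ⟨0, Finset.mem_range.2 (by omega)⟩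
  · intro i _
    have : 2 ≤ q ^ (i + 2) := le_trans hq (Nat.le_self_pow (by omega) q)
    omega
  · intro i _
    have : 1 ≤ q ^ (i + 2) := Nat.one_le_pow _ _ (by omega)
    omega

theorem up_psl {F : Type*} [Field F] [Fintype F] {q : ℕ} (hF : Fintype.card F = q) {n : ℕ} (hn : 2 ≤ n) :
    Nat.card (ProjectiveSpecialLinearGroup (Fin n) F) < q ^ (n ^ 2 - 1) := by
  have hq : 2 ≤ q := hF ▸ Fintype.one_lt_card
  have h1 := card_psl hF hn
  have h2 : 1 ≤ Nat.gcd n (q - 1) := Nat.gcd_pos_of_pos_left _ (by omega)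
  have h3 : Nat.card (ProjectiveSpecialLinearGroup (Fin n) F) ≤
    Nat.gcd n (q - 1) * Nat.card (ProjectiveSpecialLinearGroup (Fin n) F) := Nat.le_mul_of_pos_left _ h2
  refine lt_of_le_of_lt h3 ?_
  rw [h1]
  have h4 := prod_pred_lt hq (k := n - 1) (by omega)
  have h5 : n * (n - 1) / 2 + ∑ i ∈ Finset.range (n - 1), (i + 2) = n ^ 2 - 1 := by
    have e1 := tri_even n
    have e2 := sum_add_two (n - 1)
    obtain ⟨m, rfl⟩ := Nat.exists_eq_add_of_le' (show 1 ≤ n by omega)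
    rw [Nat.add_sub_cancel] at *
    have e3 : 2 * ((m + 1) ^ 2 - 1) = (m + 1) * m + m * (m + 3) := by
      have : (m + 1) ^ 2 - 1 = m * (m + 2) := by
        rw [show (m + 1) ^ 2 = m * (m + 2) + 1 by ring, Nat.add_sub_cancel]
      rw [this]
      ring
    omega
  rw [← h5, pow_add]
  exact Nat.mul_lt_mul_of_le_of_lt le_rfl h4 (Nat.pos_of_ne_zero (pow_ne_zero _ (by omega)))

theorem dvd_psl {F : Type*} [Field F] [Fintype F] {q : ℕ} (hF : Fintype.card F = q) {n : ℕ} (hn : 2 ≤ n) :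
    q ^ (n * (n - 1) / 2) ∣ Nat.card (ProjectiveSpecialLinearGroup (Fin n) F) := by
  have hq : 2 ≤ q := hF ▸ Fintype.one_lt_card
  have h1 := card_psl hF hn
  have h2 : Nat.Coprime (q ^ (n * (n - 1) / 2)) (Nat.gcd n (q - 1)) := by
    refine Nat.Coprime.pow_left _ ?_
    refine Nat.Coprime.coprime_dvd_right (Nat.gcd_dvd_right _ _) ?_
    obtain ⟨j, rfl⟩ := Nat.exists_eq_add_of_le' (show 1 ≤ q by omega)
    rw [Nat.add_sub_cancel]
    simp
  exact h2.dvd_of_dvd_mul_left (Dvd.intro _ h1.symm)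

theorem card_psl_two {F : Type*} [Field F] [Fintype F] {q : ℕ} (hF : Fintype.card F = q) :
    ∃ g : ℕ, (g = 1 ∨ g = 2) ∧
      g * Nat.card (ProjectiveSpecialLinearGroup (Fin 2) F) = q * (q ^ 2 - 1) := by
  refine ⟨Nat.gcd 2 (q - 1), (Nat.dvd_prime Nat.prime_two).1 (Nat.gcd_dvd_left _ _), ?_⟩
  rw [card_psl hF le_rfl]
  simp

theorem card_psp {F : Type*} [Field F] [Fintype F] {q : ℕ} (hF : Fintype.card F = q) {m : ℕ} (hm : 1 ≤ m) :
    Nat.gcd 2 (q - 1) * Nat.card (PSp m F) = q ^ (m ^ 2) * ∏ i ∈ Finset.range m, (q ^ (2 * (i + 1)) - 1) := by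
  have h1 := Cfsg.Agent.S0245.result hF m
  have h2 := Cfsg.Agent.S0246.result hF m hm
  have h3 := Subgroup.card_mul_index (Subgroup.center ↥(Matrix.symplecticGroup (Fin m) F))
  rw [h1, h2] at h3
  exact h3

theorem up_psp {F : Type*} [Field F] [Fintype F] {q : ℕ} (hF : Fintype.card F = q) {m : ℕ} (hm : 1 ≤ m) :
    Nat.card (PSp m F) < q ^ (2 * m ^ 2 + m) := by
  have hq : 2 ≤ q := hF ▸ Fintype.one_lt_card
  have h1 := card_psp hF hm
  have h2 : 1 ≤ Nat.gcd 2 (q - 1) := Nat.gcd_pos_of_pos_left _ (by omega)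
  have h3 : Nat.card (PSp m F) ≤ Nat.gcd 2 (q - 1) * Nat.card (PSp m F) := Nat.le_mul_of_pos_left _ h2
  refine lt_of_le_of_lt h3 ?_
  rw [h1]
  have h4 : ∏ i ∈ Finset.range m, (q ^ (2 * (i + 1)) - 1) < q ^ (∑ i ∈ Finset.range m, 2 * (i + 1)) := by
    rw [← Finset.prod_pow_eq_pow_sum]
    refine Finset.prod_lt_prod_of_nonempty ?_ ?_ ⟨0, Finset.mem_range.2 (by omega)⟩
    · intro i _
      have : 2 ≤ q ^ (2 * (i + 1)) := le_trans hq (Nat.le_self_pow (by omega) q)
      omega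
    · intro i _
      have : 1 ≤ q ^ (2 * (i + 1)) := Nat.one_le_pow _ _ (by omega)
      omega
  have h5 : ∀ m : ℕ, ∑ i ∈ Finset.range m, 2 * (i + 1) = m * (m + 1) := by
    intro m
    induction m with
    | zero => rfl
    | succ m ih =>
      rw [Finset.sum_range_succ, ih]
      ring
  rw [h5] at h4
  have h6 : 2 * m ^ 2 + m = m ^ 2 + m * (m + 1) := by ring
  rw [h6, pow_add]
  exact Nat.mul_lt_mul_of_le_of_lt le_rfl h4 (Nat.pos_of_ne_zero (pow_ne_zero _ (by omega)))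

theorem dvd_psp {F : Type*} [Field F] [Fintype F] {q : ℕ} (hF : Fintype.card F = q) {m : ℕ} (hm : 1 ≤ m) :
    q ^ (m ^ 2) ∣ Nat.card (PSp m F) := by
  have hq : 2 ≤ q := hF ▸ Fintype.one_lt_card
  have h1 := card_psp hF hm
  have h2 : Nat.Coprime (q ^ (m ^ 2)) (Nat.gcd 2 (q - 1)) := by
    refine Nat.Coprime.pow_left _ ?_
    refine Nat.Coprime.coprime_dvd_right (Nat.gcd_dvd_right _ _) ?_
    obtain ⟨j, rfl⟩ := Nat.exists_eq_add_of_le' (show 1 ≤ q by omega)
    rw [Nat.add_sub_cancel]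
    simp
  exact h2.dvd_of_dvd_mul_left (Dvd.intro _ h1.symm)

/-! ### exceptional groups and commutative groups -/

theorem card_exc {S : Type*} [Group S] (h : H106.RC.Exc S) :
    Nat.card S = 60 ∨ Nat.card S = 360 ∨ Nat.card S = 20160 := by
  have key : ∀ n : ℕ, 2 ≤ n → Nat.card (alternatingGroup (Fin n)) = n.factorial / 2 := by
    intro n hn
    have : Nontrivial (Fin n) := Fin.nontrivial_iff_two_le.2 hn
    have h1 := nat_card_alternatingGroup (α := Fin n)
    rw [h1, Nat.card_fin]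
  rcases h with ⟨⟨e⟩⟩ | ⟨⟨e⟩⟩ | ⟨⟨e⟩⟩
  · left; rw [Nat.card_congr e.toEquiv, key 5 (by norm_num)]; rfl
  · right; left; rw [Nat.card_congr e.toEquiv, key 6 (by norm_num)]; rfl
  · right; right; rw [Nat.card_congr e.toEquiv, key 8 (by norm_num)]; rfl

theorem dvd_exc {S : Type*} [Group S] (h : H106.RC.Exc S) : Nat.card S ∣ 20160 := by
  rcases card_exc h with h | h | h <;> rw [h]
  · exact ⟨336, rfl⟩
  · exact ⟨56, rfl⟩

theorem prime_of_comm {S : Type*} [Group S] [Finite S] (hs : IsSimpleGroup S) (h : IsMulCommutative S) :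
    (Nat.card S).Prime := by
  let _ : CommGroup S := { (inferInstance : Group S) with mul_comm := fun a b => h.is_comm.comm a b }
  exact IsSimpleGroup.prime_card

theorem not_comm_of_cube {S : Type*} [Group S] [Finite S] (hs : IsSimpleGroup S) {s : ℕ} (h2 : 2 ≤ s)
    (hd : s ^ 3 ∣ Nat.card S) : ¬ IsMulCommutative S := by
  intro h
  have hp := prime_of_comm hs h
  have h1 : s ∣ Nat.card S := (dvd_pow_self s (by norm_num)).trans hd
  rcases (Nat.dvd_prime hp).1 h1 with h3 | h3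
  · omega
  · have h4 : s ^ 2 ∣ Nat.card S := (pow_dvd_pow s (by norm_num)).trans hd
    have h5 := Nat.le_of_dvd Nat.card_pos h4
    rw [← h3] at h5
    nlinarith

theorem rc_psu {K : Type} [Field K] [Fintype K] {m s N : ℕ} (hK : Fintype.card K = s ^ 2) (hm : 3 ≤ m)
    (h32 : ¬ (m = 3 ∧ s = 2)) (hIH : H106.RC.IH N) (hlt : Nat.card (PSU m K s) < N) : H106.RC.RC (PSU m K s) := by
  have hs2 := two_le_of_card hK
  have hsimple : IsSimpleGroup (PSU m K s) := Cfsg.Agent.S0283.result hK m hm h32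
  have htri := tri_even m
  have h3 : 3 ≤ m * (m - 1) / 2 := by
    have : 3 * 2 ≤ m * (m - 1) := Nat.mul_le_mul hm (by omega)
    omega
  have hd := dvd_psu hK hm
  have hd3 : s ^ 3 ∣ Nat.card (PSU m K s) := (pow_dvd_pow s h3).trans hd
  refine hIH _ hsimple (not_comm_of_cube hsimple hs2 hd3)
    (Or.inr (Or.inr (Or.inl ⟨K, _, _, m, s, hK, hm, h32, ⟨MulEquiv.refl _⟩⟩))) ?_ hlt
  intro hE
  have h4 := hd.trans (dvd_exc hE)
  have h5 := hd3.trans (dvd_exc hE)
  have h6 : s = 2 ∨ s = 4 := by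
    have h7 := Nat.le_of_dvd (by norm_num) h5
    have h8 : s ≤ 27 := by
      by_contra h
      have : 28 ^ 3 ≤ s ^ 3 := Nat.pow_le_pow_left (by omega) 3
      omega
    interval_cases s <;> revert h5 <;> decide
  have hcard := card_psu hK hm
  have hexc := card_exc hE
  rcases h6 with rfl | rfl
  · have hm4 : m = 4 := by
      by_contra hne
      have h7 : 10 ≤ m * (m - 1) / 2 := by
        have : 5 * 4 ≤ m * (m - 1) := Nat.mul_le_mul (by omega) (by omega)
        omega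
      have h8 := (pow_dvd_pow 2 h7).trans h4
      revert h8
      decide
    subst hm4
    have h9 : ∏ i ∈ Finset.range (4 - 1), fu 2 i = 405 := by decide
    rw [h9, show Nat.gcd 4 (2 + 1) = 1 by decide] at hcard
    omega
  · have hm4 : m = 3 := by
      by_contra hne
      have h7 : 6 ≤ m * (m - 1) / 2 := by
        have : 4 * 3 ≤ m * (m - 1) := Nat.mul_le_mul (by omega) (by omega)
        omega
      have h8 := (pow_dvd_pow 4 h7).trans h4
      revert h8
      decide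
    subst hm4
    have h9 : ∏ i ∈ Finset.range (3 - 1), fu 4 i = 975 := by decide
    rw [h9, show Nat.gcd 3 (4 + 1) = 1 by decide] at hcard
    omega

theorem not_exc_psl_three {K : Type} [Field K] [Fintype K] (hK : Fintype.card K = 4) :
    ¬ H106.RC.Exc (ProjectiveSpecialLinearGroup (Fin 3) K) := by
  have hcard := card_psl hK (n := 3) (by norm_num)
  have h9 : ∏ i ∈ Finset.range (3 - 1), (4 ^ (i + 2) - 1) = 945 := by decide
  rw [h9, show Nat.gcd 3 (4 - 1) = 3 by decide] at hcard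
  have hc : Nat.card (ProjectiveSpecialLinearGroup (Fin 3) K) = 20160 := by omega
  have h2 : Fintype.card (ZMod 2) = 2 := ZMod.card 2
  rintro (⟨⟨e⟩⟩ | ⟨⟨e⟩⟩ | ⟨⟨e⟩⟩)
  · have := card_exc (S := ProjectiveSpecialLinearGroup (Fin 3) K) (Or.inl ⟨e⟩)
    have h3 := Nat.card_congr e.toEquiv
    rw [hc, nat_card_alternatingGroup, Nat.card_fin] at h3
    revert h3
    decide
  · have h3 := Nat.card_congr e.toEquiv
    rw [hc, nat_card_alternatingGroup, Nat.card_fin] at h3
    revert h3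
    decide
  · obtain ⟨e'⟩ := Cfsg.Agent.S0256.result (F := ZMod 2) h2
    exact (Cfsg.Agent.S2550.result (F := ZMod 2) h2 hK).2 ⟨e'.trans e.symm⟩

theorem rc_psl {K : Type} [Field K] [Fintype K] {Q d N : ℕ} (hK : Fintype.card K = Q) (hd : 3 ≤ d) (hQ : 4 ≤ Q)
    (hIH : H106.RC.IH N) (hlt : Nat.card (ProjectiveSpecialLinearGroup (Fin d) K) < N) :
    H106.RC.RC (ProjectiveSpecialLinearGroup (Fin d) K) := by
  have hsimple : IsSimpleGroup (ProjectiveSpecialLinearGroup (Fin d) K) := Cfsg.Agent.S0249.result d hd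
  have hfin : Finite (ProjectiveSpecialLinearGroup (Fin d) K) := by
    unfold Matrix.ProjectiveSpecialLinearGroup
    infer_instance
  have htri := tri_even d
  have h3 : 3 ≤ d * (d - 1) / 2 := by
    have : 3 * 2 ≤ d * (d - 1) := Nat.mul_le_mul hd (by omega)
    omega
  have hdv := dvd_psl hK (n := d) (by omega)
  have hd3 := (pow_dvd_pow Q h3).trans hdv
  refine hIH _ hsimple (not_comm_of_cube hsimple (by omega) hd3)
    (Or.inl ⟨K, inferInstance, inferInstance, d, by omega, fun h => absurd h (by omega), ⟨MulEquiv.refl _⟩⟩) ?_ hlt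
  intro hE
  have h4 := hdv.trans (dvd_exc hE)
  have h5 := hd3.trans (dvd_exc hE)
  have h6 : Q = 4 := by
    have h7 := Nat.le_of_dvd (by norm_num) h5
    have h8 : Q ≤ 27 := by
      by_contra h
      have : 28 ^ 3 ≤ Q ^ 3 := Nat.pow_le_pow_left (by omega) 3
      omega
    clear hK hd3 hdv h4
    interval_cases Q <;> revert h5 <;> decide
  subst h6
  have hm4 : d = 3 := by
    by_contra hne
    have h7 : 6 ≤ d * (d - 1) / 2 := by
      have : 4 * 3 ≤ d * (d - 1) := Nat.mul_le_mul (by omega) (by omega)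
      omega
    have h8 := (pow_dvd_pow 4 h7).trans h4
    revert h8
    decide
  subst hm4
  exact not_exc_psl_three hK hE

theorem rc_psl_two {K : Type} [Field K] [Fintype K] {Q N : ℕ} (hK : Fintype.card K = Q) (hQ : 4 ≤ Q) (hQ4 : Q ≠ 4)
    (hQ5 : Q ≠ 5) (hQ9 : Q ≠ 9) (hIH : H106.RC.IH N)
    (hlt : Nat.card (ProjectiveSpecialLinearGroup (Fin 2) K) < N) :
    H106.RC.RC (ProjectiveSpecialLinearGroup (Fin 2) K) := by
  have hsimple : IsSimpleGroup (ProjectiveSpecialLinearGroup (Fin 2) K) :=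
    Cfsg.Agent.TwoFusion.SLTwoFacts.isSimpleGroup_psl (by omega)
  have hfin : Finite (ProjectiveSpecialLinearGroup (Fin 2) K) := by
    unfold Matrix.ProjectiveSpecialLinearGroup
    infer_instance
  obtain ⟨g, hg, hcard⟩ := card_psl_two hK
  have hsq : Q ^ 2 - 1 = (Q - 1) * (Q + 1) := by
    obtain ⟨j, rfl⟩ := Nat.exists_eq_add_of_le' (show 1 ≤ Q by omega)
    rw [Nat.add_sub_cancel, show (j + 1) ^ 2 = j * (j + 1 + 1) + 1 by ring, Nat.add_sub_cancel]
  refine hIH _ hsimple ?_ (Or.inl ⟨K, inferInstance, inferInstance, 2, le_rfl, fun _ => hK ▸ hQ, ⟨MulEquiv.refl _⟩⟩) ?_ hlt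
  · intro h
    have hp := prime_of_comm hsimple h
    have h1 : Nat.card (ProjectiveSpecialLinearGroup (Fin 2) K) ∣ Q * ((Q - 1) * (Q + 1)) := by
      rw [← hsq, ← hcard]
      exact Dvd.intro_left _ rfl
    have h2 : Nat.card (ProjectiveSpecialLinearGroup (Fin 2) K) ≤ Q + 1 := by
      rcases (Nat.Prime.dvd_mul hp).1 h1 with h2 | h2
      · have := Nat.le_of_dvd (by omega) h2
        omega
      · rcases (Nat.Prime.dvd_mul hp).1 h2 with h3 | h3
        · have := Nat.le_of_dvd (by omega) h3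
          omega
        · exact Nat.le_of_dvd (by omega) h3
    have h3 : g * Nat.card (ProjectiveSpecialLinearGroup (Fin 2) K) ≤ 2 * (Q + 1) :=
      Nat.mul_le_mul (by omega) h2
    rw [hcard, hsq] at h3
    have h4 : 4 * (3 * (Q + 1)) ≤ Q * ((Q - 1) * (Q + 1)) :=
      Nat.mul_le_mul hQ (Nat.mul_le_mul_right _ (by omega))
    omega
  · intro hE
    have hexc := card_exc hE
    have h5 : Q * (Q ^ 2 - 1) ≤ 40320 := by
      rw [← hcard]
      rcases hg with rfl | rfl <;> omega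
    have h6 : Q ≤ 34 := by
      by_contra h
      have h7 : 35 * (35 ^ 2 - 1) ≤ Q * (Q ^ 2 - 1) :=
        Nat.mul_le_mul (by omega) (Nat.sub_le_sub_right (Nat.pow_le_pow_left (by omega) 2) 1)
      omega
    clear hsq hlt hK hE
    interval_cases Q <;> norm_num at hcard <;> rcases hg with rfl | rfl <;> omega

theorem rc_psp {K : Type} [Field K] [Fintype K] {Q m N : ℕ} (hK : Fintype.card K = Q) (hm : 2 ≤ m)
    (h22 : ¬ (m = 2 ∧ Q = 2)) (hIH : H106.RC.IH N) (hlt : Nat.card (PSp m K) < N) : H106.RC.RC (PSp m K) := by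
  have hQ : 2 ≤ Q := hK ▸ Fintype.one_lt_card
  have h3 : m = 2 → 3 ≤ Fintype.card K := by
    intro h
    rw [hK]
    by_contra h'
    exact h22 ⟨h, by omega⟩
  have hsimple : IsSimpleGroup (PSp m K) := Cfsg.Agent.S0270.result m hm h3
  have hdv := dvd_psp hK (m := m) (by omega)
  have h4 : 4 ≤ m ^ 2 := by nlinarith
  refine hIH _ hsimple (not_comm_of_cube hsimple hQ ((pow_dvd_pow Q (by omega)).trans hdv))
    (Or.inr (Or.inl ⟨K, _, _, m, hm, h3, ⟨MulEquiv.refl _⟩⟩)) ?_ hlt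
  intro hE
  have h5 := ((pow_dvd_pow Q h4).trans hdv).trans (dvd_exc hE)
  have h6 : Q = 2 := by
    have h7 := Nat.le_of_dvd (by norm_num) h5
    have h8 : Q ≤ 11 := by
      by_contra h
      have : 12 ^ 4 ≤ Q ^ 4 := Nat.pow_le_pow_left (by omega) 4
      omega
    clear hK hdv h22
    interval_cases Q <;> revert h5 <;> decide
  subst h6
  have hm3 : 3 ≤ m := by
    by_contra h
    exact h22 ⟨by omega, rfl⟩
  have h7 : 9 ≤ m ^ 2 := by nlinarith
  have h8 := ((pow_dvd_pow 2 h7).trans hdv).trans (dvd_exc hE)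
  revert h8
  decide

theorem lt_psu {F : Type*} [Field F] [Fintype F] {q n : ℕ} (hF : Fintype.card F = q ^ 2) (hn : 3 ≤ n) {X e : ℕ}
    (hX : X < q ^ e) (he : e + 2 ≤ n * (n - 1)) : X < Nat.card (PSU n F q) := by
  have hq := two_le_of_card hF
  have h1 := low_psu hF hn
  have h2 : q ^ 2 * X < q ^ 2 * q ^ e := Nat.mul_lt_mul_of_pos_left hX (Nat.pos_of_ne_zero (pow_ne_zero _ (by omega)))
  have h3 : q ^ 2 * q ^ e ≤ q ^ (n * (n - 1)) := by
    rw [← pow_add]
    exact Nat.pow_le_pow_right (by omega) (by omega)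
  exact lt_of_mul_lt_mul_left (h2.trans_le (h3.trans h1)) (Nat.zero_le _)

/-- **E16** -/
theorem small_stmt : H380.RC.SmallStmt := by
  intro F _ _ n q hF hn h32 hIH
  have hq := two_le_of_card hF
  obtain ⟨n', rfl⟩ := Nat.exists_eq_add_of_le' hn
  refine ⟨?_, ?_, ?_, ?_, ?_, ?_, ?_⟩
  · intro m hm hmn h
    refine rc_psu hF hm h hIH (lt_psu hF hn (up_psu hF hm) ?_)
    have h1 : m ^ 2 ≤ (n' + 2) ^ 2 := Nat.pow_le_pow_left (by omega) 2
    have h2 : (n' + 3) * (n' + 3 - 1) = (n' + 2) ^ 2 + (n' + 2) := by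
      rw [show n' + 3 - 1 = n' + 2 by omega]
      ring
    omega
  · intro K _ _ l m hnm hl hm hK
    have hQ2 : 2 < q ^ l := by
      have : q ^ 2 ≤ q ^ l := Nat.pow_le_pow_right (by omega) (by omega)
      nlinarith
    refine rc_psu hK hm (fun h => by omega) hIH (lt_psu hF hn (e := l * (m ^ 2 - 1)) ?_ ?_)
    · rw [pow_mul]
      exact up_psu hK hm
    · rw [hnm]
      obtain ⟨a, rfl⟩ := Nat.exists_eq_add_of_le' hl
      obtain ⟨b, rfl⟩ := Nat.exists_eq_add_of_le' hm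
      have h1 : (b + 3) * (a + 3) - 1 = (b + 3) * (a + 3) - 1 := rfl
      have h2 : 1 ≤ (b + 3) * (a + 3) := by nlinarith
      have h3 : 1 ≤ (b + 3) ^ 2 := Nat.one_le_pow _ _ (by omega)
      zify [h2, h3]
      nlinarith [Nat.zero_le a, Nat.zero_le b, Nat.zero_le (a * b), Nat.zero_le (a * b * b), Nat.zero_le (a * a * b * b), Nat.zero_le (a * a * b)]
  · intro K _ _ l hnl hl hK
    have hQ8 : 2 ^ 3 ≤ q ^ l := (Nat.pow_le_pow_left hq 3).trans (Nat.pow_le_pow_right (by omega) hl)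
    refine rc_psl_two hK (by omega) (by omega) (by omega) ?_ hIH (lt_psu hF hn (e := l * 3) ?_ ?_)
    · intro h9
      have h1 : q ^ 3 ∣ 9 := by
        rw [← h9]
        exact pow_dvd_pow q hl
      have h2 := Nat.le_of_dvd (by norm_num) h1
      have h3 : q ≤ 2 := by
        by_contra h
        have : 3 ^ 3 ≤ q ^ 3 := Nat.pow_le_pow_left (by omega) 3
        omega
      have h4 : q = 2 := by omega
      subst h4
      revert h1
      decide
    · rw [pow_mul]
      exact up_psl hK le_rfl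
    · rw [hnl]
      obtain ⟨a, rfl⟩ := Nat.exists_eq_add_of_le' hl
      have h2 : 2 * (a + 3) - 1 = 2 * a + 5 := by omega
      rw [h2]
      nlinarith [Nat.zero_le a]
  · intro d hnd hd
    have hd2 : 2 ≤ d := by omega
    have hlt : Nat.card (ProjectiveSpecialLinearGroup (Fin d) F) < Nat.card (PSU (n' + 3) F q) := by
      refine lt_psu hF hn (e := 2 * (d ^ 2 - 1)) ?_ ?_
      · rw [pow_mul]
        exact up_psl hF hd2
      · rw [hnd]
        have h1 : 1 ≤ d ^ 2 := Nat.one_le_pow _ _ (by omega)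
        have h2 : 2 * (d ^ 2 - 1) + 2 = 2 * d ^ 2 := by omega
        rw [h2]
        obtain ⟨a, rfl⟩ := Nat.exists_eq_add_of_le' hd2
        have h3 : 2 * (a + 2) - 1 = 2 * a + 3 := by omega
        rw [h3]
        nlinarith [Nat.zero_le a]
    by_cases hd' : d = 2
    · subst hd'
      have hq4 : 4 ≤ q := by
        by_contra h
        exact hd ⟨rfl, by omega⟩
      have : 16 ≤ q ^ 2 := by nlinarith
      exact rc_psl_two hF (by omega) (by omega) (by omega) (by omega) hIH hlt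
    · have : 4 ≤ q ^ 2 := by nlinarith
      exact rc_psl hF (by omega) this hIH hlt
  · intro K _ _ s t hqs ht hK h
    have hs2 := two_le_of_card hK
    refine rc_psu hK hn h hIH (lt_psu hF hn (e := (n' + 3) * (n' + 3 - 1) - 2) ?_ ?_)
    · refine (up_psu hK hn).trans_le ?_
      rw [hqs, ← pow_mul]
      refine Nat.pow_le_pow_right (by omega) ?_
      have h1 : (n' + 3) ^ 2 - 1 ≤ 2 * ((n' + 3) * (n' + 3 - 1) - 2) := by
        rw [show n' + 3 - 1 = n' + 2 by omega]
        have h2 : (n' + 3) ^ 2 - 1 = n' * n' + 6 * n' + 8 := by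
          rw [show (n' + 3) ^ 2 = n' * n' + 6 * n' + 8 + 1 by ring, Nat.add_sub_cancel]
        have h3 : (n' + 3) * (n' + 2) - 2 = n' * n' + 5 * n' + 4 := by
          rw [show (n' + 3) * (n' + 2) = n' * n' + 5 * n' + 4 + 2 by ring, Nat.add_sub_cancel]
        rw [h2, h3]
        nlinarith [Nat.zero_le n']
      exact h1.trans (Nat.mul_le_mul_right _ (by omega))
    · have : 6 ≤ (n' + 3) * (n' + 3 - 1) := by
        rw [show n' + 3 - 1 = n' + 2 by omega]
        nlinarith [Nat.zero_le n']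
      omega
  · intro K _ _ hK h4 hq4 hq5 hq9
    refine rc_psl_two hK h4 hq4 hq5 hq9 hIH (lt_psu hF hn (e := 3) ?_ ?_)
    · exact up_psl hK le_rfl
    · rw [show n' + 3 - 1 = n' + 2 by omega]
      nlinarith [Nat.zero_le n']
  · intro K _ _ m hK hnm h22
    have hm2 : 2 ≤ m := by omega
    refine rc_psp hK hm2 h22 hIH (lt_psu hF hn (up_psp hK (by omega)) ?_)
    rw [hnm]
    obtain ⟨a, rfl⟩ := Nat.exists_eq_add_of_le' hm2
    have h3 : 2 * (a + 2) - 1 = 2 * a + 3 := by omega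
    rw [h3]
    nlinarith [Nat.zero_le a]

/-! ### E0 -/

/-- all members of the family are powers of one element -/
theorem exists_gen {G ι : Type*} [Group G] [Finite ι] {x : ι → G} {r : ι → ℕ} (h : H106.RC.PF x r) :
    ∃ g : G, ∀ i, ∃ e : ℕ, g ^ e = x i := by
  classical
  have := Fintype.ofFinite ι
  let _ : CommGroup (Subgroup.closure (Set.range x)) := Subgroup.closureCommGroupOfComm (by
    rintro _ ⟨i, rfl⟩ _ ⟨j, rfl⟩
    exact h.comm i j)
  let y : ι → Subgroup.closure (Set.range x) := fun i => ⟨x i, Subgroup.subset_closure ⟨i, rfl⟩⟩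
  have hy : ∀ i, y i ^ r i = 1 := fun i => Subtype.ext (h.pow i)
  refine ⟨((∏ i, y i : Subgroup.closure (Set.range x)) : G), fun i => ?_⟩
  have hco : Nat.Coprime (∏ j ∈ Finset.univ.erase i, r j) (r i) := by
    refine Nat.Coprime.prod_left fun j hj => ?_
    exact (Nat.coprime_primes (h.prime j) (h.prime i)).2 fun h' => Finset.ne_of_mem_erase hj (h.inj h')
  obtain ⟨d, hd⟩ := Nat.exists_mul_mod_eq_one_of_coprime hco (h.prime i).one_lt
  refine ⟨(∏ j ∈ Finset.univ.erase i, r j) * d, ?_⟩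
  have key : (∏ i, y i) ^ ((∏ j ∈ Finset.univ.erase i, r j) * d) = y i := by
    rw [← Finset.prod_pow, Finset.prod_eq_single i]
    · have h1 := Nat.div_add_mod ((∏ j ∈ Finset.univ.erase i, r j) * d) (r i)
      rw [hd.2] at h1
      rw [← h1, pow_add, pow_mul, hy, one_pow, one_mul, pow_one]
    · intro j _ hji
      obtain ⟨c, hc⟩ : r j ∣ (∏ j ∈ Finset.univ.erase i, r j) * d :=
        (Finset.dvd_prod_of_mem r (Finset.mem_erase.2 ⟨hji, Finset.mem_univ j⟩)).mul_right d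
      rw [hc, pow_mul, hy, one_pow]
    · intro hi
      exact absurd (Finset.mem_univ i) hi
  exact congrArg Subtype.val key

/-- **E0** -/
theorem lift_stmt : H380.RC.LiftStmt := by
  intro G Ω _ _ _ N F _ _ n q U ι _ x r h
  obtain ⟨g, hg⟩ := exists_gen h
  choose e he using hg
  obtain ⟨f0, hf0⟩ := U.exists_lft g
  have hbij : Function.Bijective f0 := ⟨H380.RC.Ind.injective hf0.ind, H380.RC.Ind.surjective hf0.ind⟩
  let P : Equiv.Perm (Fin n → F) := Equiv.ofBijective f0 hbij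
  have hP : ∀ k : ℕ, (⇑(P ^ k)) = f0^[k] := fun k => (Equiv.Perm.iterate_eq_pow P k).symm
  set m := orderOf P with hm
  have hm0 : 0 < m := orderOf_pos P
  -- the exponents
  have hex : ∀ i, ∃ k : ℕ, g ^ k = x i ∧ ∃ a : ℕ, m ∣ k * r i ^ a := by
    intro i
    obtain ⟨a, b, hb, hab⟩ := Nat.exists_eq_pow_mul_and_not_dvd hm0.ne' (r i) (h.prime i).one_lt.ne'
    have hco : Nat.Coprime b (r i) := ((Nat.Prime.coprime_iff_not_dvd (h.prime i)).2 hb).symm
    obtain ⟨c, hc⟩ := Nat.exists_mul_mod_eq_one_of_coprime hco (h.prime i).one_lt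
    refine ⟨e i * (b * c), ?_, a, ?_⟩
    · rw [pow_mul, he]
      have h1 := Nat.div_add_mod (b * c) (r i)
      rw [hc.2] at h1
      rw [← h1, pow_add, pow_mul, h.pow, one_pow, one_mul, pow_one]
    · rw [hab]
      exact ⟨e i * c, by ring⟩
  choose k hk a ha using hex
  refine ⟨fun i => f0^[k i], h, fun i => ?_, fun i j v => ?_, fun i => ⟨a i, fun v => ?_⟩⟩
  · have h1 := hf0.pow (k i)
    rwa [hk] at h1
  · rw [← Function.iterate_add_apply, ← Function.iterate_add_apply, add_comm]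
  · rw [← Function.iterate_mul, ← hP]
    obtain ⟨c, hc⟩ := ha i
    rw [hc, pow_mul, hm, pow_orderOf_eq_one, one_pow]
    rfl

end Cfsg.Agent.H906.RC
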